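import Mathlib
import Cfsg.Agent.Lib.Helper41.SnB.Defs

/-!
S2986, package [QS] (helper34): interface of the sub-packages.  Definitions and statements only.
Notation as in `Cfsg.Agent.Lib.Helper41.SnB.Defs`: `Qb p X = O_p(X)`, `Wb p X = Ω₁(Z(Q))`,
`Zb p X = C_W(X)`, `Ab p X = [W, X]`, `Vb p G = Ω₁(Z(O_p(G)))`.
-/

set_option autoImplicit false

namespace Cfsg.Agent.Lib.Helper34.SnB

open Cfsg Cfsg.Agent.Lib.Helper41.SnB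

universe u

variable {G : Type u} [Group G]

/-- Condition (C): all commutators of `E` and `F` lie in `O_p(G)`. -/
def CC (p : ℕ) (E F : Subgroup G) : Prop :=
  ∀ e ∈ E, ∀ f ∈ F, e * f * e⁻¹ * f⁻¹ ∈ pCore p G

/-- The derived facts on one block `X`. -/
structure BF (p : ℕ) (X : Subgroup G) : Prop where
  Qp : IsPGroup p ↥(Qb p X)
  QX : Qb p X ≤ X
  WQ : Wb p X ≤ Qb p X
  WcQ : ∀ w ∈ Wb p X, ∀ q ∈ Qb p X, w * q = q * w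
  AW : Ab p X ≤ Wb p X
  PA : ∀ x ∈ pCore p G, ∀ a ∈ Ab p X, x * a = a * x
  nQ : ∀ g ∈ Subgroup.normalizer (X : Set G), ∀ y ∈ Qb p X, g * y * g⁻¹ ∈ Qb p X
  nW : ∀ g ∈ Subgroup.normalizer (X : Set G), ∀ y ∈ Wb p X, g * y * g⁻¹ ∈ Wb p X
  nZ : ∀ g ∈ Subgroup.normalizer (X : Set G), ∀ y ∈ Zb p X, g * y * g⁻¹ ∈ Zb p X
  nA : ∀ g ∈ Subgroup.normalizer (X : Set G), ∀ y ∈ Ab p X, g * y * g⁻¹ ∈ Ab p X
  ZC : ∀ z ∈ Zb p X, ∀ x ∈ X, z * x = x * z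
  AA : ⁅Ab p X, X⁆ = Ab p X
  AZ : ¬ Ab p X ≤ Zb p X
  WAZ : ∀ w ∈ Wb p X, ∃ a ∈ Ab p X, ∃ z ∈ Zb p X, w = a * z
  irr : ∀ Y : Subgroup G, Y ≤ Ab p X → Nz X Y → Y ≤ Zb p X ∨ Y = Ab p X
  VA : ⁅Vb p G, X⁆ ≤ Ab p X

/-! ### Sub-packages -/

/-- [RES] a group generated by `p'`-elements acting on a `p`-group `U`: `[U, X, X] = [U, X]`. -/
def PkgRes : Prop :=
  ∀ {G : Type u} [Group G] [Finite G] {p : ℕ} [Fact p.Prime] (X U : Subgroup G),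
    pResidualOf p X = X → IsPGroup p ↥U → Nz X U → ⁅⁅U, X⁆, X⁆ = ⁅U, X⁆

/-- [BF] the derived facts on one block. -/
def PkgBF : Prop :=
  ∀ {G : Type u} [Group G] [Finite G] {p : ℕ} [Fact p.Prime] (X : Subgroup G),
    SBlk p X → BF p X

/-- [RED] reduction to (C) by components of `G / O_p(G)`. -/
def PkgRed : Prop :=
  ∀ {G : Type u} [Group G] [Finite G] {p : ℕ} [Fact p.Prime] (E F : Subgroup G),
    SBlk p E → SBlk p F → E.IsSubnormal → F.IsSubnormal → QsType p E →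
    (QsType p F ∨ ∃ r : ℕ, r.Prime ∧ IsPGroup r (↥F ⧸ pCore p ↥F)) →
    E = F ∨ CC p E F

/-- [NORM] under (C) the two blocks normalize each other and `[E, F] ≤ O_p(E) ∩ O_p(F)`. -/
def PkgNorm : Prop :=
  ∀ {G : Type u} [Group G] [Finite G] {p : ℕ} [Fact p.Prime] (E F : Subgroup G),
    SBlk p E → SBlk p F → CC p E F → Nz E F ∧ Nz F E ∧ ⁅E, F⁆ ≤ Qb p E ⊓ Qb p F

/-- [DICH] `A_E = A_F`, or each block centralizes the `A` of the other. -/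
def PkgDich : Prop :=
  ∀ {G : Type u} [Group G] [Finite G] {p : ℕ} [Fact p.Prime] (E F : Subgroup G),
    SBlk p E → SBlk p F → BF p E → BF p F → CC p E F → Nz E F → Nz F E →
    Ab p E = Ab p F ∨ (⁅Ab p E, F⁆ = ⊥ ∧ ⁅Ab p F, E⁆ = ⊥)

/-- [NEQ] if `E` has a `p`-element outside `O_p(E)` then `A_E ≠ A_F`. -/
def PkgNeq : Prop :=
  ∀ {G : Type u} [Group G] [Finite G] {p : ℕ} [Fact p.Prime] (E F : Subgroup G),
    SBlk p E → SBlk p F → BF p E → BF p F → CC p E F → Nz E F → Nz F E →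
    ∀ t ∈ E, t ∉ Qb p E → (∃ k : ℕ, t ^ (p ^ k) = 1) → Ab p E ≠ Ab p F

/-- [XX] `X = [E, F]` satisfies `[X, E] = X = [X, F]`. -/
def PkgXX : Prop :=
  ∀ {G : Type u} [Group G] [Finite G] {p : ℕ} [Fact p.Prime] (E F : Subgroup G),
    SBlk p E → SBlk p F → CC p E F → Nz E F → Nz F E →
    ⁅⁅E, F⁆, E⁆ = ⁅E, F⁆ ∧ ⁅⁅E, F⁆, F⁆ = ⁅E, F⁆

/-- [EXC] both blocks exceptional: `[E, F]` lies in `W_E` or in `W_F`. -/
def PkgExc : Prop :=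
  ∀ {G : Type u} [Group G] [Finite G] {p : ℕ} [Fact p.Prime] (E F : Subgroup G),
    SBlk p E → SBlk p F → BF p E → BF p F → CC p E F → Nz E F → Nz F E →
    ⁅E, F⁆ ≤ Qb p E ⊓ Qb p F → ExcData p E → ExcData p F →
    ∀ t ∈ E, t ∉ Qb p E → (∃ k : ℕ, t ^ (p ^ k) = 1) →
    ⁅E, F⁆ ≤ Wb p E ∨ ⁅E, F⁆ ≤ Wb p F

end Cfsg.Agent.Lib.Helper34.SnB
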