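import Mathlib
import Cfsg.Agent.Lib.Helper23.SnB.NQDefs

/-!
# S2986, package [Q8-NQ], sub-package [NQ-FIT] (helper34)

Fitting's lemma for a coprime action on an abelian section `H / N`: an element of `[H, S] N`
fixed by `S` modulo `N` lies in `N`.
-/

set_option autoImplicit false

namespace Cfsg.Agent.Lib.Helper34.SnB

open Cfsg Cfsg.Agent.Lib.Helper41.SnB Cfsg.Agent.Lib.Helper23.SnB

universe u

section fit

variable {G : Type u} [Group G] (H N S : Subgroup G)

/-- The abelian group `H / N` (as a quotient of the abelianization of `H`). -/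
abbrev FitQ : Type u :=
  Abelianization ↥H ⧸ (N.subgroupOf H).map (Abelianization.of : ↥H →* Abelianization ↥H)

/-- The projection `H → H / N`. -/
def fitProj : ↥H →* FitQ H N :=
  (QuotientGroup.mk' ((N.subgroupOf H).map (Abelianization.of : ↥H →* Abelianization ↥H))).comp
    Abelianization.of

theorem fitProj_eq_one_of_mem (a : ↥H) (ha : (a : G) ∈ N) : fitProj H N a = 1 := by
  unfold fitProj
  rw [MonoidHom.comp_apply, QuotientGroup.mk'_apply, QuotientGroup.eq_one_iff]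
  exact ⟨a, Subgroup.mem_subgroupOf.mpr ha, rfl⟩

theorem mem_of_fitProj_eq_one (hcomm : ∀ a ∈ H, ∀ b ∈ H, a * b * a⁻¹ * b⁻¹ ∈ N) (a : ↥H)
    (ha : fitProj H N a = 1) : (a : G) ∈ N := by
  unfold fitProj at ha
  rw [MonoidHom.comp_apply, QuotientGroup.mk'_apply, QuotientGroup.eq_one_iff] at ha
  obtain ⟨n, hn, hna⟩ := ha
  have hle : commutator ↥H ≤ N.subgroupOf H := by
    rw [commutator_def, Subgroup.commutator_le]
    intro g₁ _ g₂ _
    rw [Subgroup.mem_subgroupOf, commutatorElement_def]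
    exact hcomm g₁ g₁.2 g₂ g₂.2
  have h1 : n⁻¹ * a ∈ (Abelianization.of : ↥H →* Abelianization ↥H).ker := by
    rw [MonoidHom.mem_ker, map_mul, map_inv, hna, inv_mul_cancel]
  rw [Abelianization.ker_of] at h1
  have h2 : n * (n⁻¹ * a) ∈ N.subgroupOf H := Subgroup.mul_mem _ hn (hle h1)
  rw [mul_inv_cancel_left] at h2
  exact Subgroup.mem_subgroupOf.mp h2

variable {H S}

/-- Conjugation by an element of `S` on `H`. -/
def fitCj (hSH : ∀ s ∈ S, ∀ a ∈ H, s * a * s⁻¹ ∈ H) (s : ↥S) (a : ↥H) : ↥H :=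
  ⟨(s : G) * (a : G) * (s : G)⁻¹, hSH s s.2 a a.2⟩

theorem fitCj_mul (hSH : ∀ s ∈ S, ∀ a ∈ H, s * a * s⁻¹ ∈ H) (s : ↥S) (a b : ↥H) :
    fitCj hSH s (a * b) = fitCj hSH s a * fitCj hSH s b := by
  apply Subtype.ext
  show (s : G) * ((a : G) * (b : G)) * (s : G)⁻¹ =
    (s : G) * (a : G) * (s : G)⁻¹ * ((s : G) * (b : G) * (s : G)⁻¹)
  group

theorem fitCj_one (hSH : ∀ s ∈ S, ∀ a ∈ H, s * a * s⁻¹ ∈ H) (s : ↥S) :
    fitCj hSH s (1 : ↥H) = 1 := by
  apply Subtype.ext
  show (s : G) * (1 : G) * (s : G)⁻¹ = 1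
  group

theorem fitCj_fitCj (hSH : ∀ s ∈ S, ∀ a ∈ H, s * a * s⁻¹ ∈ H) (s t : ↥S) (a : ↥H) :
    fitCj hSH s (fitCj hSH t a) = fitCj hSH (s * t) a := by
  apply Subtype.ext
  show (s : G) * ((t : G) * (a : G) * (t : G)⁻¹) * (s : G)⁻¹ =
    ((s : G) * (t : G)) * (a : G) * ((s : G) * (t : G))⁻¹
  group

end fit

/-- Package [NQ-FIT]. -/
theorem pkgFit : PkgFit.{u} := by
  intro G _ H N S _ _ hNH hcomm hSH hSN hcop y hy hfix
  classical
  haveI : Fintype ↥S := Fintype.ofFinite _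
  -- the norm map
  let θ : ↥H →* FitQ H N :=
    { toFun := fun a => ∏ s : ↥S, fitProj H N (fitCj hSH s a)
      map_one' := by
        apply Finset.prod_eq_one
        intro s _
        rw [fitCj_one, map_one]
      map_mul' := by
        intro a b
        rw [← Finset.prod_mul_distrib]
        apply Finset.prod_congr rfl
        intro s _
        rw [fitCj_mul, map_mul] }
  have hθ : ∀ a : ↥H, θ a = ∏ s : ↥S, fitProj H N (fitCj hSH s a) := fun a => rfl
  -- invariance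
  have hinv : ∀ (t : ↥S) (a : ↥H), θ (fitCj hSH t a) = θ a := by
    intro t a
    rw [hθ, hθ]
    apply Fintype.prod_equiv (Equiv.mulRight t)
    intro s
    rw [fitCj_fitCj]
    rfl
  -- `θ` kills `N`
  have hN : ∀ a : ↥H, (a : G) ∈ N → θ a = 1 := by
    intro a ha
    rw [hθ]
    apply Finset.prod_eq_one
    intro s _
    exact fitProj_eq_one_of_mem H N _ (hSN s s.2 a ha)
  -- the kernel of `θ` contains `[H, S] N`
  have hle : Subgroup.closure {g : G | ∃ s ∈ S, ∃ a ∈ H, g = s * a * s⁻¹ * a⁻¹} ⊔ N ≤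
      θ.ker.map H.subtype := by
    apply sup_le
    · rw [Subgroup.closure_le]
      rintro g ⟨s, hs, a, ha, rfl⟩
      refine ⟨fitCj hSH ⟨s, hs⟩ ⟨a, ha⟩ * (⟨a, ha⟩ : ↥H)⁻¹, ?_, rfl⟩
      show θ _ = 1
      rw [map_mul, map_inv, hinv, mul_inv_cancel]
    · intro n hn
      exact ⟨⟨n, hNH hn⟩, hN _ hn, rfl⟩
  obtain ⟨y', hy', rfl⟩ := hle hy
  have hy1 : θ y' = 1 := hy'
  -- `y` is fixed modulo `N`
  have hfix' : ∀ s : ↥S, fitProj H N (fitCj hSH s y') = fitProj H N y' := by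
    intro s
    have h1 : fitProj H N (fitCj hSH s y' * y'⁻¹) = 1 :=
      fitProj_eq_one_of_mem H N _ (hfix s s.2)
    rw [map_mul, map_inv, mul_inv_eq_one] at h1
    exact h1
  have hpowS : fitProj H N y' ^ Nat.card ↥S = 1 := by
    rw [← hy1, hθ, Finset.prod_congr rfl (fun s _ => hfix' s), Finset.prod_const,
      Finset.card_univ, Nat.card_eq_fintype_card]
  have hpowH : fitProj H N y' ^ Nat.card ↥H = 1 := by
    rw [← map_pow, pow_card_eq_one', map_one]
  have h1 : fitProj H N y' = 1 := by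
    have hd1 := orderOf_dvd_of_pow_eq_one hpowS
    have hd2 := orderOf_dvd_of_pow_eq_one hpowH
    have h2 : orderOf (fitProj H N y') = 1 := Nat.eq_one_of_dvd_coprimes hcop hd1 hd2
    exact orderOf_eq_one_iff.mp h2
  exact mem_of_fitProj_eq_one H N hcomm y' h1

end Cfsg.Agent.Lib.Helper34.SnB
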