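import Mathlib
import Cfsg.Agent.Lib.Helper34.SnB.QSDefs

/-!
S2986, package [QS] (helper34): assembly of `PkgQS` from the sub-packages.
-/

set_option autoImplicit false

namespace Cfsg.Agent.Lib.Helper34.SnB

open Cfsg Cfsg.Agent.Lib.Helper41.SnB

universe u

variable {G : Type u} [Group G]

theorem nz_le_normalizer {H K : Subgroup G} (h : Nz H K) :
    H ≤ Subgroup.normalizer (K : Set G) := by
  intro x hx
  rw [Subgroup.mem_normalizer_iff]
  intro k
  constructor
  · intro hk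
    exact h x hx k hk
  · intro hk
    have := h x⁻¹ (H.inv_mem hx) _ hk
    have e : x⁻¹ * (x * k * x⁻¹) * x⁻¹⁻¹ = k := by group
    rwa [e] at this

theorem nz_commutator {E F H : Subgroup G} (hE : Nz H E) (hF : Nz H F) : Nz H ⁅E, F⁆ := by
  intro h hh x hx
  have h1 : h ∈ Subgroup.normalizer (E : Set G) := nz_le_normalizer hE hh
  have h2 : h ∈ Subgroup.normalizer (F : Set G) := nz_le_normalizer hF hh
  have hn : (⁅E, F⁆ : Subgroup G).map (MulAut.conj h).toMonoidHom = ⁅E, F⁆ := by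
    rw [Subgroup.map_commutator]
    have e1 : E.map (MulAut.conj h).toMonoidHom = E := by
      apply le_antisymm
      · rintro _ ⟨y, hy, rfl⟩
        exact (Subgroup.mem_normalizer_iff.mp h1 y).mp hy
      · intro y hy
        refine ⟨h⁻¹ * y * h, ?_, ?_⟩
        · have := (Subgroup.mem_normalizer_iff.mp (Subgroup.inv_mem _ h1) y).mp hy
          simpa using this
        · simp [MulAut.conj_apply]; group
    have e2 : F.map (MulAut.conj h).toMonoidHom = F := by
      apply le_antisymm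
      · rintro _ ⟨y, hy, rfl⟩
        exact (Subgroup.mem_normalizer_iff.mp h2 y).mp hy
      · intro y hy
        refine ⟨h⁻¹ * y * h, ?_, ?_⟩
        · have := (Subgroup.mem_normalizer_iff.mp (Subgroup.inv_mem _ h2) y).mp hy
          simpa using this
        · simp [MulAut.conj_apply]; group
    rw [e1, e2]
  rw [← hn]
  exact ⟨x, hx, rfl⟩

theorem nz_self (E : Subgroup G) : Nz E E := fun h hh k hk =>
  E.mul_mem (E.mul_mem hh hk) (E.inv_mem hh)

theorem commutator_eq_bot_of_cz {A B : Subgroup G} (h : ∀ a ∈ A, ∀ b ∈ B, a * b = b * a) :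
    ⁅A, B⁆ = ⊥ := by
  rw [Subgroup.commutator_eq_bot_iff_le_centralizer]
  intro a ha
  rw [Subgroup.mem_centralizer_iff]
  intro b hb
  exact (h a ha b hb).symm

/-- (3e) -/
theorem bot_of_le_W {p : ℕ} {E F : Subgroup G} (fE : BF p E) (hEF : Nz E F)
    (hXE : ⁅⁅E, F⁆, E⁆ = ⁅E, F⁆) (hXF : ⁅⁅E, F⁆, F⁆ = ⁅E, F⁆) (hAF : ⁅Ab p E, F⁆ = ⊥)
    (hW : ⁅E, F⁆ ≤ Wb p E) : ⁅E, F⁆ = ⊥ := by
  have hXA : ⁅E, F⁆ ≤ Ab p E := by
    rw [← hXE]
    exact Subgroup.commutator_mono hW le_rfl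
  have hnz : Nz E ⁅E, F⁆ := nz_commutator (nz_self E) hEF
  rcases fE.irr _ hXA hnz with h | h
  · rw [← hXE]
    exact commutator_eq_bot_of_cz (fun a ha b hb => fE.ZC a (h ha) b hb)
  · rw [← hXF, h]
    exact hAF

theorem pkgQS_of (hBF : PkgBF.{u}) (hRed : PkgRed.{u}) (hNorm : PkgNorm.{u})
    (hDich : PkgDich.{u}) (hNeq : PkgNeq.{u}) (hXX : PkgXX.{u}) (hExc : PkgExc.{u}) :
    PkgQS.{u} := by
  intro G _ _ p _ E F bE bF hEs hFs qE hF
  rcases hRed E F bE bF hEs hFs qE hF with h | hC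
  · exact Or.inl h
  right
  obtain ⟨hEF, hFE, hXQ⟩ := hNorm E F bE bF hC
  have fE := hBF E bE
  have fF := hBF F bF
  obtain ⟨-, t, htE, htQ, htk⟩ := qE
  have hne := hNeq E F bE bF fE fF hC hEF hFE t htE htQ htk
  obtain ⟨hAEF, hAFE⟩ := (hDich E F bE bF fE fF hC hEF hFE).resolve_left hne
  obtain ⟨hXE, hXF⟩ := hXX E F bE bF hC hEF hFE
  have key1 : ⁅E, F⁆ ≤ Wb p E → ⁅E, F⁆ = ⊥ := bot_of_le_W fE hEF hXE hXF hAEF
  have key2 : ⁅E, F⁆ ≤ Wb p F → ⁅E, F⁆ = ⊥ := by
    intro hW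
    rw [Subgroup.commutator_comm]
    have c := Subgroup.commutator_comm E F
    apply bot_of_le_W fF hFE
    · rw [← c]; exact hXF
    · rw [← c]; exact hXE
    · exact hAFE
    · rw [← c]; exact hW
  rcases bE.alt with hQW | hExE
  · apply key1
    rw [← hQW]
    exact hXQ.trans inf_le_left
  rcases bF.alt with hQW | hExF
  · apply key2
    rw [← hQW]
    exact hXQ.trans inf_le_right
  rcases hExc E F bE bF fE fF hC hEF hFE hXQ hExE hExF t htE htQ htk with h | h
  · exact key1 h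
  · exact key2 h

end Cfsg.Agent.Lib.Helper34.SnB
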