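import Mathlib
import Cfsg.Agent.Lib.Helper34.SnB.QSAsm

/-!
S2986, package [QS], sub-package [QS-EXC] (helper34): two exceptional blocks.
-/

set_option autoImplicit false

namespace Cfsg.Agent.Lib.Helper34.SnB

open Cfsg Cfsg.Agent.Lib.Helper41.SnB

universe u

/-- Iterated commutators with a fixed element inside a nilpotent subgroup eventually vanish. -/
theorem iter_comm_eq_one {G : Type*} [Group G] (S : Subgroup G) (hS : Group.IsNilpotent ↥S)
    (t : G) (ht : t ∈ S) (u : G) (hu : u ∈ S) :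
    ∃ n : ℕ, (fun v => t * v * t⁻¹ * v⁻¹)^[n] u = 1 := by
  obtain ⟨n, hn⟩ := (Subgroup.isNilpotent_iff_lowerCentralSeries S).mp hS
  refine ⟨n, ?_⟩
  have key : ∀ i : ℕ, (fun v => t * v * t⁻¹ * v⁻¹)^[i] u ∈ S.lowerCentralSeries i := by
    intro i
    induction i with
    | zero => exact hu
    | succ i ih =>
      rw [Function.iterate_succ_apply', Subgroup.lowerCentralSeries_succ]
      have h1 := Subgroup.commutator_mem_commutator ih ht
      have h2 := Subgroup.inv_mem _ h1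
      rw [commutatorElement_inv, commutatorElement_def] at h2
      exact h2
  have := key n
  rw [hn, Subgroup.mem_bot] at this
  exact this

theorem zpowers_isPGroup {G : Type*} [Group G] {p : ℕ} {t : G} {k : ℕ} (h : t ^ (p ^ k) = 1) :
    IsPGroup p ↥(Subgroup.zpowers t) := by
  rintro ⟨g, hg⟩
  obtain ⟨j, rfl⟩ := Subgroup.mem_zpowers_iff.mp hg
  refine ⟨k, Subtype.ext ?_⟩
  show (t ^ j) ^ (p ^ k) = 1
  rw [← zpow_natCast, ← zpow_mul, mul_comm, zpow_mul, zpow_natCast, h, one_zpow]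

theorem pkgExc : PkgExc.{u} := by
  intro G _ _ p _ E F bE bF fE fF hC hEF hFE hXQ xE xF t htE htQ htk
  by_contra hcon
  rw [not_or] at hcon
  obtain ⟨hXE, hXF⟩ := hcon
  obtain ⟨-, hQQE, -, hZE, coverE, faithE⟩ := xE
  obtain ⟨-, hQQF, -, hZF, coverF, faithF⟩ := xF
  obtain ⟨k, htk⟩ := htk
  have hXQE : ⁅E, F⁆ ≤ Qb p E := hXQ.trans inf_le_left
  have hXQF : ⁅E, F⁆ ≤ Qb p F := hXQ.trans inf_le_right
  have nEX : Nz E ⁅E, F⁆ := nz_commutator (nz_self E) hEF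
  have nFX : Nz F ⁅E, F⁆ := nz_commutator hFE (nz_self F)
  have hEnE : E ≤ Subgroup.normalizer (E : Set G) := Subgroup.le_normalizer
  have hFnE : F ≤ Subgroup.normalizer (E : Set G) := nz_le_normalizer hFE
  have hEnF : E ≤ Subgroup.normalizer (F : Set G) := nz_le_normalizer hEF
  have hFnF : F ≤ Subgroup.normalizer (F : Set G) := Subgroup.le_normalizer
  have WEab : ∀ a ∈ Wb p E, ∀ b ∈ Wb p E, a * b = b * a :=
    fun a ha b hb => fE.WcQ a ha b (fE.WQ hb)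
  have WFab : ∀ a ∈ Wb p F, ∀ b ∈ Wb p F, a * b = b * a :=
    fun a ha b hb => fF.WcQ a ha b (fF.WQ hb)
  -- the two intersections coincide
  have ca : ∀ x ∈ ⁅E, F⁆, x ∈ Wb p E → x ∈ Wb p F := by
    by_contra hne
    have hne' : ¬ (⁅E, F⁆ ⊓ Wb p E) ≤ Wb p F := fun h => hne (fun x hx hw => h ⟨hx, hw⟩)
    have hnz : Nz F (⁅E, F⁆ ⊓ Wb p E) :=
      fun f hf y hy => ⟨nFX f hf y hy.1, fE.nW f (hFnE hf) y hy.2⟩
    have hcov := coverF (⁅E, F⁆ ⊓ Wb p E) (inf_le_left.trans hXQF) hnz hne'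
    have hab : ⁅Qb p F, Qb p F⁆ = ⊥ := by
      apply commutator_eq_bot_of_cz
      intro u hu u' hu'
      obtain ⟨x, hx, w, hw, rfl⟩ := hcov u hu
      obtain ⟨x', hx', w', hw', rfl⟩ := hcov u' hu'
      have e1 := WEab x hx.2 x' hx'.2
      have e2 := fF.WcQ w hw x' (hXQF hx'.1)
      have e3 := fF.WcQ w' hw' x (hXQF hx.1)
      have e4 := fF.WcQ w hw w' (fF.WQ hw')
      calc x * w * (x' * w') = x * (w * x') * w' := by group
        _ = x * (x' * w) * w' := by rw [e2]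
        _ = (x * x') * (w * w') := by group
        _ = (x' * x) * (w' * w) := by rw [e1, e4]
        _ = x' * (x * w') * w := by group
        _ = x' * (w' * x) * w := by rw [e3]
        _ = x' * w' * (x * w) := by group
    rw [hQQF] at hab
    exact hZF hab
  have cb : ∀ x ∈ ⁅E, F⁆, x ∈ Wb p F → x ∈ Wb p E := by
    by_contra hne
    have hne' : ¬ (⁅E, F⁆ ⊓ Wb p F) ≤ Wb p E := fun h => hne (fun x hx hw => h ⟨hx, hw⟩)
    have hnz : Nz E (⁅E, F⁆ ⊓ Wb p F) :=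
      fun e he y hy => ⟨nEX e he y hy.1, fF.nW e (hEnF he) y hy.2⟩
    have hcov := coverE (⁅E, F⁆ ⊓ Wb p F) (inf_le_left.trans hXQE) hnz hne'
    have hab : ⁅Qb p E, Qb p E⁆ = ⊥ := by
      apply commutator_eq_bot_of_cz
      intro u hu u' hu'
      obtain ⟨x, hx, w, hw, rfl⟩ := hcov u hu
      obtain ⟨x', hx', w', hw', rfl⟩ := hcov u' hu'
      have e1 := WFab x hx.2 x' hx'.2
      have e2 := fE.WcQ w hw x' (hXQE hx'.1)
      have e3 := fE.WcQ w' hw' x (hXQE hx.1)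
      have e4 := fE.WcQ w hw w' (fE.WQ hw')
      calc x * w * (x' * w') = x * (w * x') * w' := by group
        _ = x * (x' * w) * w' := by rw [e2]
        _ = (x * x') * (w * w') := by group
        _ = (x' * x) * (w' * w) := by rw [e1, e4]
        _ = x' * (x * w') * w := by group
        _ = x' * (w' * x) * w := by rw [e3]
        _ = x' * w' * (x * w) := by group
    rw [hQQE] at hab
    exact hZE hab
  -- commutators of `X` lie in `W_E`
  have hcomm : ∀ c ∈ ⁅E, F⁆, ∀ u ∈ ⁅E, F⁆, c * u * c⁻¹ * u⁻¹ ∈ Wb p E := by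
    intro c hc u hu
    have h1 := Subgroup.commutator_mem_commutator (hXQE hc) (hXQE hu)
    rw [hQQE, commutatorElement_def] at h1
    exact h1.1
  -- elements of `W_E` commute with `X`
  have hWX : ∀ w ∈ Wb p E, ∀ u ∈ ⁅E, F⁆, u * w * u⁻¹ = w := by
    intro w hw u hu
    have := fE.WcQ w hw u (hXQE hu)
    rw [← this]; group
  have htn : ∀ w ∈ Wb p E, t * w * t⁻¹ ∈ Wb p E := fun w hw => fE.nW t (hEnE htE) w hw
  -- the subgroup `C`
  let C : Subgroup G :=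
    { carrier := {u | u ∈ ⁅E, F⁆ ∧ t * u * t⁻¹ * u⁻¹ ∈ Wb p E}
      one_mem' := ⟨Subgroup.one_mem _, by simp⟩
      mul_mem' := by
        rintro u u' ⟨hu, hu2⟩ ⟨hu', hu2'⟩
        refine ⟨Subgroup.mul_mem _ hu hu', ?_⟩
        have e : t * (u * u') * t⁻¹ * (u * u')⁻¹ =
            (t * u * t⁻¹ * u⁻¹) * (u * (t * u' * t⁻¹ * u'⁻¹) * u⁻¹) := by group
        rw [e, hWX _ hu2' u hu]
        exact Subgroup.mul_mem _ hu2 hu2'
      inv_mem' := by
        rintro u ⟨hu, hu2⟩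
        refine ⟨Subgroup.inv_mem _ hu, ?_⟩
        have e : t * u⁻¹ * t⁻¹ * u⁻¹⁻¹ = u⁻¹ * (t * u * t⁻¹ * u⁻¹)⁻¹ * u⁻¹⁻¹ := by group
        rw [e, hWX _ (Subgroup.inv_mem _ hu2) u⁻¹ (Subgroup.inv_mem _ hu)]
        exact Subgroup.inv_mem _ hu2 }
  have hCmem : ∀ u, u ∈ C ↔ u ∈ ⁅E, F⁆ ∧ t * u * t⁻¹ * u⁻¹ ∈ Wb p E := fun u => Iff.rfl
  -- an element of `C` outside `W_E`
  obtain ⟨u₁, hu₁C, hu₁W⟩ : ∃ u ∈ C, u ∉ Wb p E := by
    obtain ⟨u₀, hu₀X, hu₀W⟩ := SetLike.not_le_iff_exists.mp hXE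
    have hnzQ : Nz E (Qb p E) := fun e he y hy => fE.nQ e (hEnE he) y hy
    have htnQ : t ∈ Subgroup.normalizer ((Qb p E : Subgroup G) : Set G) :=
      nz_le_normalizer hnzQ htE
    have hSp : IsPGroup p ↥(Qb p E ⊔ Subgroup.zpowers t) :=
      IsPGroup.to_sup_of_normal_left' fE.Qp (zpowers_isPGroup htk)
        (Subgroup.zpowers_le.mpr htnQ)
    have hSn : Group.IsNilpotent ↥(Qb p E ⊔ Subgroup.zpowers t) := hSp.isNilpotent
    obtain ⟨n, hn⟩ := iter_comm_eq_one (Qb p E ⊔ Subgroup.zpowers t) hSn t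
      (le_sup_right (a := Qb p E) (Subgroup.mem_zpowers t)) u₀
      (le_sup_left (b := Subgroup.zpowers t) (hXQE hu₀X))
    have hiterX : ∀ i : ℕ, (fun v => t * v * t⁻¹ * v⁻¹)^[i] u₀ ∈ ⁅E, F⁆ := by
      intro i
      induction i with
      | zero => exact hu₀X
      | succ i ih =>
        rw [Function.iterate_succ_apply']
        exact Subgroup.mul_mem _ (nEX t htE _ ih) (Subgroup.inv_mem _ ih)
    have hex : ∃ i : ℕ, (fun v => t * v * t⁻¹ * v⁻¹)^[i] u₀ ∈ Wb p E :=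
      ⟨n, by rw [hn]; exact Subgroup.one_mem _⟩
    classical
    have hmin : ∀ m : ℕ, m < Nat.find hex →
        ¬ (fun v => t * v * t⁻¹ * v⁻¹)^[m] u₀ ∈ Wb p E := fun m hm => Nat.find_min hex hm
    have hspec := Nat.find_spec hex
    have hpos : Nat.find hex ≠ 0 := by
      intro h0
      rw [h0] at hspec
      exact hu₀W hspec
    obtain ⟨j, hj⟩ := Nat.exists_eq_succ_of_ne_zero hpos
    rw [hj, Function.iterate_succ_apply'] at hspec
    refine ⟨(fun v => t * v * t⁻¹ * v⁻¹)^[j] u₀, ⟨hiterX j, hspec⟩, ?_⟩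
    exact hmin j (by rw [hj]; exact Nat.lt_succ_self j)
  -- `C` is `F`-invariant
  have hCF : Nz F C := by
    intro f hf u hu
    obtain ⟨huX, hu2⟩ := hu
    refine ⟨nFX f hf u huX, ?_⟩
    have hc : t⁻¹ * f⁻¹ * t * f ∈ ⁅E, F⁆ := by
      have := Subgroup.commutator_mem_commutator (E.inv_mem htE) (F.inv_mem hf)
      rw [commutatorElement_def] at this
      simpa using this
    have e : t * (f * u * f⁻¹) * t⁻¹ * (f * u * f⁻¹)⁻¹ =
        f * (t * ((t⁻¹ * f⁻¹ * t * f) * u * (t⁻¹ * f⁻¹ * t * f)⁻¹ * u⁻¹) * t⁻¹ *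
          (t * u * t⁻¹ * u⁻¹)) * f⁻¹ := by group
    rw [e]
    apply fE.nW f (hFnE hf)
    exact Subgroup.mul_mem _ (htn _ (hcomm _ hc u huX)) hu2
  have hCX : C ≤ ⁅E, F⁆ := fun u hu => hu.1
  have hCW : ¬ C ≤ Wb p F := fun h => hu₁W (cb u₁ hu₁C.1 (h hu₁C))
  have hcovC := coverF C (hCX.trans hXQF) hCF hCW
  -- hence `C = X`
  have hXC : ∀ x ∈ ⁅E, F⁆, t * x * t⁻¹ * x⁻¹ ∈ Wb p E := by
    intro x hx
    obtain ⟨c, hc, w, hw, e⟩ := hcovC x (hXQF hx)
    have hwX : w ∈ ⁅E, F⁆ := by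
      have : w = c⁻¹ * x := by rw [e]; group
      rw [this]
      exact Subgroup.mul_mem _ (Subgroup.inv_mem _ hc.1) hx
    have hwE : w ∈ Wb p E := cb w hwX hw
    have hwC : w ∈ C := ⟨hwX, Subgroup.mul_mem _ (htn w hwE) (Subgroup.inv_mem _ hwE)⟩
    have : x ∈ C := by rw [e]; exact C.mul_mem hc hwC
    exact this.2
  -- `t` acts trivially on `Q_E / W_E`
  have hcovX := coverE ⁅E, F⁆ hXQE nEX hXE
  apply htQ
  apply faithE t htE
  intro q hq
  obtain ⟨x, hx, w, hw, rfl⟩ := hcovX q hq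
  have e : t * (x * w) * t⁻¹ * (x * w)⁻¹ =
      (t * x * t⁻¹ * x⁻¹) * (x * (t * w * t⁻¹ * w⁻¹) * x⁻¹) := by group
  rw [e, hWX _ (Subgroup.mul_mem _ (htn w hw) (Subgroup.inv_mem _ hw)) x hx]
  exact Subgroup.mul_mem _ (hXC x hx) (Subgroup.mul_mem _ (htn w hw) (Subgroup.inv_mem _ hw))

end Cfsg.Agent.Lib.Helper34.SnB
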