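import Mathlib
import Cfsg.Agent.Lib.Helper41.SnB.Defs
import Cfsg.Agent.Lib.Helper34.SnB.QSDefs
import Cfsg.Agent.Lib.Helper34.SnB.QSAsm
import Cfsg.Agent.Lib.Helper34.SnB.QSExc
import Cfsg.Agent.Lib.Helper96.SnB.QSRes
import Cfsg.Agent.Lib.Helper96.SnB.QSXX
import Cfsg.Agent.Lib.Helper6.SnB.QSBF
import Cfsg.Agent.Lib.Helper6.SnB.QSDich
import Cfsg.Agent.Lib.Helper67.SnB.QSRed
import Cfsg.Agent.Lib.Helper67.SnB.QSNorm
import Cfsg.Agent.Lib.Helper24.SnB.QSNeq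

set_option autoImplicit false

/-!
# S2986, package [QS]: final assembly

`pkgQS : PkgQS` from the eight sub-packages
RES (helper96), BF and DICH (helper6), RED and NORM (helper67), NEQ (helper24),
XX (helper96), EXC and the assembly lemma `pkgQS_of` (helper34).
-/

namespace Cfsg.Agent.Lib.Helper34.SnB

universe u

theorem pkgQS : Cfsg.Agent.Lib.Helper41.SnB.PkgQS.{u} :=
  pkgQS_of
    (Cfsg.Agent.Lib.Helper6.SnB.pkgBF_of Cfsg.Agent.Lib.Helper96.SnB.pkgRes)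
    Cfsg.Agent.Lib.Helper67.SnB.pkgRed
    Cfsg.Agent.Lib.Helper67.SnB.pkgNorm
    (Cfsg.Agent.Lib.Helper6.SnB.pkgDich_of Cfsg.Agent.Lib.Helper96.SnB.pkgRes)
    Cfsg.Agent.Lib.Helper24.SnB.pkgNeq
    Cfsg.Agent.Lib.Helper96.SnB.pkgXX
    pkgExc

end Cfsg.Agent.Lib.Helper34.SnB
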